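import Cfsg.Agent.H284.EP.TForm

/-!
# S3499: commuting invariant subgroups and transitively permuted factors (helper528)

* `EPT.t2_inf`, `EPT.t2_card` (T2): `X`, `Y` nontrivial `Γ`-invariant subgroups of `A` which commute elementwise:
  `X ∩ A^x = 1` for `x ∉ A`, `|X| = |Y|`; `EPT.t2_inf_comm` for one abelian subgroup.
* `EPT.t3_mem` (T3): nontrivial subgroups `L i ≤ A`, pairwise commuting, transitively permuted by `Γ`:
  `L i ≤ A^x` implies `x ∈ A`; corollaries `EPT.t3_conj_le`, `EPT.t3_centralizer_le`, `EPT.t3_normalizer_le`.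
-/

set_option autoImplicit false

namespace Cfsg.Agent.H284.EPT

open Subgroup

variable {Q : Type*} [Group Q] {A : Subgroup Q} {Γ : Subgroup (MulAut Q)} (h : EPT A Γ)

include h

/-! ### T2 -/

/-- **(T2)** `X`, `Y ≤ A` are `Γ`-invariant and commute elementwise, `Y ≠ 1`: `X ∩ A^x = 1` for `x ∉ A`. -/
theorem t2_inf {X Y : Subgroup Q} (hX : X ≤ A) (hXn : ∀ σ ∈ Γ, ∀ k ∈ X, σ k ∈ X) (hY : Y ≤ A)
    (hYn : ∀ σ ∈ Γ, ∀ k ∈ Y, σ k ∈ Y) (hXY : ∀ a ∈ X, ∀ b ∈ Y, a * b = b * a) (hY0 : Y ≠ ⊥) {x : Q} (hx : x ∉ A) :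
    X ⊓ cj x A = ⊥ := by
  refine h.F1 x hx (X ⊓ cj x A) (inf_le_left.trans hX) ?_ inf_le_right
  rintro σ hσ k ⟨hk1, hk2⟩
  obtain ⟨y, hy, τ, hτ, hτx, rfl⟩ := h.fac hY hYn hY0 hx hσ
  have h1 : τ k ∈ A ⊓ cj x A := h.stab_M0 hτ hτx ⟨hX hk1, hk2⟩
  have h2 : τ k ∈ X := hXn τ hτ k hk1
  have h3 : (MulAut.conj y * τ) k = τ k := by
    rw [MulAut.mul_apply, MulAut.conj_apply, ← hXY _ h2 y hy, mul_inv_cancel_right]
  rw [h3]
  exact ⟨h2, (mem_inf.1 h1).2⟩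

/-- `|A| = |X| |A ∩ A^x|` for `Γ`-invariant `X ≠ 1` with `X ∩ A^x = 1` -/
theorem t2_card_mul [Finite Q] {X : Subgroup Q} (hX : X ≤ A) (hXn : ∀ σ ∈ Γ, ∀ k ∈ X, σ k ∈ X) (hX0 : X ≠ ⊥)
    {x : Q} (hx : x ∉ A) (hi : X ⊓ cj x A = ⊥) :
    Nat.card X * Nat.card (A ⊓ cj x A : Subgroup Q) = Nat.card A := by
  rw [← Nat.card_prod]
  apply Nat.card_congr
  refine Equiv.ofBijective (fun p => (⟨p.1.1 * p.2.1, mul_mem (hX p.1.2) (mem_inf.1 p.2.2).1⟩ : A)) ⟨?_, ?_⟩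
  · rintro ⟨a, b⟩ ⟨c, d⟩ he
    have e1 : (a : Q) * b = c * d := Subtype.ext_iff.1 he
    have e2 : (c : Q)⁻¹ * a = d * (b : Q)⁻¹ := by
      rw [inv_mul_eq_iff_eq_mul, ← mul_assoc, ← e1, mul_assoc, mul_inv_cancel, mul_one]
    have e3 : (c : Q)⁻¹ * a ∈ X ⊓ cj x A :=
      ⟨X.mul_mem (X.inv_mem c.2) a.2, by
        rw [e2]
        exact (cj x A).mul_mem (mem_inf.1 d.2).2 ((cj x A).inv_mem (mem_inf.1 b.2).2)⟩
    rw [hi, mem_bot] at e3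
    have e4 : (a : Q) = c := (inv_mul_eq_one.1 e3).symm
    rw [e4] at e1
    exact Prod.ext (Subtype.ext e4) (Subtype.ext (mul_left_cancel e1))
  · rintro ⟨a, ha⟩
    obtain ⟨k, hk, m, hm, rfl⟩ := h.fac_A hX hXn hX0 hx ha
    exact ⟨(⟨k, hk⟩, ⟨m, hm⟩), rfl⟩

/-- **(T2)** commuting nontrivial `Γ`-invariant subgroups of `A` have the same order -/
theorem t2_card [Finite Q] {X Y : Subgroup Q} (hX : X ≤ A) (hXn : ∀ σ ∈ Γ, ∀ k ∈ X, σ k ∈ X) (hX0 : X ≠ ⊥)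
    (hY : Y ≤ A) (hYn : ∀ σ ∈ Γ, ∀ k ∈ Y, σ k ∈ Y) (hY0 : Y ≠ ⊥) (hXY : ∀ a ∈ X, ∀ b ∈ Y, a * b = b * a) :
    Nat.card X = Nat.card Y := by
  obtain ⟨x, hx⟩ := h.exists_notMem
  have h1 := h.t2_card_mul hX hXn hX0 hx (h.t2_inf hX hXn hY hYn hXY hY0 hx)
  have h2 := h.t2_card_mul hY hYn hY0 hx (h.t2_inf hY hYn hX hXn (fun a ha b hb => (hXY b hb a ha).symm) hX0 hx)
  exact Nat.eq_of_mul_eq_mul_right Nat.card_pos (h1.trans h2.symm)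

/-- **(T2)** an abelian `Γ`-invariant subgroup of `A` meets the conjugates of `A` trivially -/
theorem t2_inf_comm {X : Subgroup Q} (hX : X ≤ A) (hXn : ∀ σ ∈ Γ, ∀ k ∈ X, σ k ∈ X)
    (hXc : ∀ a ∈ X, ∀ b ∈ X, a * b = b * a) {x : Q} (hx : x ∉ A) : X ⊓ cj x A = ⊥ := by
  by_cases h0 : X = ⊥
  · rw [h0, bot_inf_eq]
  · exact h.t2_inf hX hXn hX hXn hXc h0 hx

/-- **(T2)** `C_A(X)` has the order of `X`, if it is not trivial -/
theorem t2_cent [Finite Q] {X : Subgroup Q} (hX : X ≤ A) (hXn : ∀ σ ∈ Γ, ∀ k ∈ X, σ k ∈ X) (hX0 : X ≠ ⊥)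
    (hC0 : A ⊓ centralizer (X : Set Q) ≠ ⊥) : Nat.card (A ⊓ centralizer (X : Set Q) : Subgroup Q) = Nat.card X := by
  refine h.t2_card inf_le_left ?_ hC0 hX hXn hX0 fun a ha b hb => ((mem_centralizer_iff.1 (mem_inf.1 ha).2) b hb).symm
  intro σ hσ k hk
  refine ⟨(h.inv σ hσ k).2 (mem_inf.1 hk).1, mem_centralizer_iff.2 fun b hb => ?_⟩
  have h1 : σ⁻¹ b ∈ X := hXn σ⁻¹ (Γ.inv_mem hσ) b hb
  have h2 := mem_centralizer_iff.1 (mem_inf.1 hk).2 _ h1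
  have h3 := congrArg σ h2
  rwa [map_mul, map_mul, MulAut.apply_inv_self] at h3

/-! ### T3 -/

/-- **(T3)**, general form: `N ≤ A` is `Γ`-invariant, contained in the join of the `L j`, normalises each of them, and
`Γ` permutes them transitively. -/
theorem t3_mem' {ι : Type*} {N : Subgroup Q} {L : ι → Subgroup Q} (hN : N ≤ A)
    (hNn : ∀ σ ∈ Γ, ∀ k ∈ N, σ k ∈ N) (hN0 : N ≠ ⊥) (hNL : N ≤ ⨆ i, L i)
    (hNj : ∀ k ∈ N, ∀ j, ∀ z ∈ L j, k * z * k⁻¹ ∈ L j) {i : ι}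
    (htr : ∀ j, ∃ σ ∈ Γ, L j ≤ (L i).map σ.toMonoidHom) {x : Q} (hi : L i ≤ A) (hix : L i ≤ cj x A) : x ∈ A := by
  by_contra hx
  apply hN0
  refine h.F1 x hx N hN hNn (hNL.trans (iSup_le fun j => ?_))
  obtain ⟨σ, hσ, hj⟩ := htr j
  obtain ⟨k, hk, τ, hτ, hτx, rfl⟩ := h.fac hN hNn hN0 hx hσ
  intro z hz
  obtain ⟨y, hy, hyz⟩ := hj (hNj k hk j z hz)
  have h1 : τ y = z := by
    have h2 : k * τ y * k⁻¹ = k * z * k⁻¹ := hyz
    exact mul_left_cancel (mul_right_cancel h2)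
  rw [← h1]
  exact (mem_inf.1 (h.stab_M0 hτ hτx ⟨hi hy, hix hy⟩)).2

omit h in
/-- pairwise commuting subgroups are normalised by their join -/
theorem t3_normalizes {ι : Type*} {L : ι → Subgroup Q} (hcomm : ∀ i j, i ≠ j → ∀ a ∈ L i, ∀ b ∈ L j, a * b = b * a)
    {k : Q} (hk : k ∈ ⨆ i, L i) (j : ι) {z : Q} (hz : z ∈ L j) : k * z * k⁻¹ ∈ L j := by
  have h1 : (⨆ i, L i) ≤ normalizer (L j : Set Q) := by
    refine iSup_le fun i => ?_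
    by_cases hij : i = j
    · rw [hij]
      exact le_normalizer
    · intro a ha
      rw [mem_normalizer_iff]
      intro b
      constructor
      · intro hb
        rw [hcomm i j hij a ha b hb, mul_inv_cancel_right]
        exact hb
      · intro hb
        have h2 := hcomm i j hij a⁻¹ ((L i).inv_mem ha) _ hb
        have h3 : b = a * b * a⁻¹ := by
          have e1 : a⁻¹ * (a * b * a⁻¹) = b * a⁻¹ := by group
          rw [e1] at h2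
          exact mul_right_cancel h2
        rw [h3]
        exact hb
  exact (mem_normalizer_iff.1 (h1 hk) z).1 hz

omit h in
/-- the join of permuted subgroups is invariant -/
theorem t3_inv {ι : Type*} {L : ι → Subgroup Q} (hperm : ∀ σ ∈ Γ, ∀ i, ∃ j, ∀ y ∈ L i, σ y ∈ L j) {σ : MulAut Q}
    (hσ : σ ∈ Γ) {k : Q} (hk : k ∈ ⨆ i, L i) : σ k ∈ ⨆ i, L i := by
  have h1 : (⨆ i, L i) ≤ (⨆ i, L i).comap σ.toMonoidHom := by
    refine iSup_le fun i y hy => ?_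
    obtain ⟨j, hj⟩ := hperm σ hσ i
    exact (le_iSup L j) (hj y hy)
  exact h1 hk

/-- **(T3)** pairwise commuting nontrivial subgroups `L i` of `A`, transitively permuted by `Γ`: if `L i ≤ A^x` for
one `i` then `x ∈ A`. -/
theorem t3_mem {ι : Type*} {L : ι → Subgroup Q} (hLA : ∀ i, L i ≤ A)
    (hcomm : ∀ i j, i ≠ j → ∀ a ∈ L i, ∀ b ∈ L j, a * b = b * a)
    (hperm : ∀ σ ∈ Γ, ∀ i, ∃ j, ∀ y ∈ L i, σ y ∈ L j) {i : ι} (hL0 : L i ≠ ⊥)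
    (htr : ∀ j, ∃ σ ∈ Γ, L j ≤ (L i).map σ.toMonoidHom) {x : Q} (hix : L i ≤ cj x A) : x ∈ A := by
  refine h.t3_mem' (N := ⨆ i, L i) (iSup_le hLA) (fun σ hσ k hk => t3_inv hperm hσ hk) ?_ le_rfl
    (fun k hk j z hz => t3_normalizes hcomm hk j hz) htr (hLA i) hix
  intro h0
  apply hL0
  rw [eq_bot_iff, ← h0]
  exact le_iSup L i

/-- if `t` conjugates the factor `L i` into `A` then `t ∈ A` -/
theorem t3_conj_le {ι : Type*} {L : ι → Subgroup Q} (hLA : ∀ i, L i ≤ A)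
    (hcomm : ∀ i j, i ≠ j → ∀ a ∈ L i, ∀ b ∈ L j, a * b = b * a)
    (hperm : ∀ σ ∈ Γ, ∀ i, ∃ j, ∀ y ∈ L i, σ y ∈ L j) {i : ι} (hL0 : L i ≠ ⊥)
    (htr : ∀ j, ∃ σ ∈ Γ, L j ≤ (L i).map σ.toMonoidHom) {t : Q} (ht : ∀ y ∈ L i, t * y * t⁻¹ ∈ A) : t ∈ A := by
  have h1 : t⁻¹ ∈ A := by
    refine h.t3_mem hLA hcomm hperm hL0 htr (x := t⁻¹) fun y hy => mem_cj.2 ?_
    rw [inv_inv]
    exact ht y hy
  exact inv_mem_iff.1 h1

/-- the centraliser of a factor lies in `A` -/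
theorem t3_centralizer_le {ι : Type*} {L : ι → Subgroup Q} (hLA : ∀ i, L i ≤ A)
    (hcomm : ∀ i j, i ≠ j → ∀ a ∈ L i, ∀ b ∈ L j, a * b = b * a)
    (hperm : ∀ σ ∈ Γ, ∀ i, ∃ j, ∀ y ∈ L i, σ y ∈ L j) {i : ι} (hL0 : L i ≠ ⊥)
    (htr : ∀ j, ∃ σ ∈ Γ, L j ≤ (L i).map σ.toMonoidHom) : centralizer (L i : Set Q) ≤ A := by
  intro t ht
  refine h.t3_conj_le hLA hcomm hperm hL0 htr fun y hy => ?_
  rw [← mem_centralizer_iff.1 ht y hy, mul_inv_cancel_right]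
  exact hLA i hy

/-- the normaliser of a factor lies in `A` -/
theorem t3_normalizer_le {ι : Type*} {L : ι → Subgroup Q} (hLA : ∀ i, L i ≤ A)
    (hcomm : ∀ i j, i ≠ j → ∀ a ∈ L i, ∀ b ∈ L j, a * b = b * a)
    (hperm : ∀ σ ∈ Γ, ∀ i, ∃ j, ∀ y ∈ L i, σ y ∈ L j) {i : ι} (hL0 : L i ≠ ⊥)
    (htr : ∀ j, ∃ σ ∈ Γ, L j ≤ (L i).map σ.toMonoidHom) : normalizer (L i : Set Q) ≤ A := by
  intro t ht
  exact h.t3_conj_le hLA hcomm hperm hL0 htr fun y hy => hLA i ((mem_normalizer_iff.1 ht y).1 hy)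

end Cfsg.Agent.H284.EPT
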